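import Cfsg.Agent.E7P.Kf.Rep

/-!
# S5932, task A1: the finite check (statement) (helper13)

`a / m` are the labels of the optimal coweight, `P0`, `P1` the indices of level `0`, `1` and weight `0`, `2`.
-/

set_option autoImplicit false

namespace Cfsg.Agent.E7P.A1

open Cfsg Cfsg.Lie Cfsg.Agent.E7P.Kf
open Cfsg.Agent.ChevalleyStructure.RootVec (rt)

/-- the value of the root `r` on the labels `a` -/
def pz (r : ℕ) (a : Fin 7 → ℤ) : ℤ := ∑ j : Fin 7, rt chevE7 r j * a j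

/-- the level of an index -/
def il (a : Fin 7 → ℕ) : chevE7.Idx → ℤ := Sum.elim (fun _ => 0) fun r : Fin chevE7.nroots => pz r fun j => a j

/-- the number of indices with a property -/
noncomputable def cnt (P : chevE7.Idx → Prop) : ℕ := Nat.card {i // P i}

/-- the highest level -/
def top (a : Fin 7 → ℕ) : ℕ := 2 * a 0 + 2 * a 1 + 3 * a 2 + 4 * a 3 + 3 * a 4 + 2 * a 5 + a 6

/-- twice the norm -/
def nrm (a : Fin 7 → ℕ) : ℤ := ∑ i : Fin 7, ∑ j : Fin 7, a i * iC i j * a j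

/-- **the finite check** -/
def FIN : Prop := ∀ (p m : ℕ) (a : Fin 7 → ℕ) (P0 P1 : chevE7.Idx → Prop), (p = 11 ∨ p = 13 ∨ p = 17) →
  (m = 3 ∨ m = 4) → (∀ j, a j ≤ m) → (p - 2) * m ≤ top a → top a ≤ (p - 1) * m →
  (∀ z : ℤ, z < 0 → cnt (fun i => il a i = z) ≤ cnt fun i => il a i = z + m) →
  (∀ i, P1 i → il a i = m) → (∀ i, P0 (Sum.inl i)) →
  (∀ r s t, ac r = ac s + ac t → P1 r → P1 s → P0 t) →
  cnt P0 ≤ cnt P1 + cnt (fun i => il a i = -(((p - 1) * m : ℕ) : ℤ)) → 7 ≤ cnt P1 →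
  (∀ ζ : Fin 7 → ℤ, (∀ r : Fin chevE7.nroots, P1 (Sum.inr r) → pz r ζ = 0) → ζ = 0) →
  top a = (p - 2) * m ∧ ¬ (p : ℤ) ∣ nrm a

end Cfsg.Agent.E7P.A1
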