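import Cfsg.Agent.E7P.A1.Lev
import Cfsg.Agent.E7P.A1.Iface
import Cfsg.Agent.E7P.Lie.Alc
import Cfsg.Agent.E7P.Frm.Tor

/-!
# S5932, task A1: reduction to the finite check (helper13)

* `Dat.rk7` : the support of the leading term has rank seven; `Dat.labels` : the labels are `a / m`, `m = 3, 4`;
* `Dat.main` : the split triple; `Sit.a1_split_of` : `S.Split` for `a = 1` from `FIN`.
-/

set_option autoImplicit false
set_option maxRecDepth 100000
set_option linter.unusedSectionVars false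

namespace Cfsg.Agent.E7P

open Cfsg Cfsg.Lie Matrix Module
open Cfsg.Agent.R2.T1 Cfsg.Agent.E7P.Br
open Cfsg.Agent.E7P.Kf hiding Lv Lv_le_Ge eq_zero_of_Lv_Gt mem_Lv
open Cfsg.Agent.H943.SL2Rel (u w h)
open Cfsg.Agent.R2.H28.SL2 (Dm)
open Cfsg.Agent.ChevalleyStructure.RootVec (rt)

universe u v

namespace A1

variable {k : Type u} [Field k]

variable (k) in
/-- coordinate subspaces -/
def Cs (P : chevE7.Idx → Prop) : Submodule k (chevE7.Idx → k) where
  carrier := {x | ∀ i, x i ≠ 0 → P i}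
  zero_mem' := fun _ h => absurd rfl h
  add_mem' := by
    intro x y hx hy i hi
    by_cases h : x i = 0
    · rw [Pi.add_apply, h, zero_add] at hi
      exact hy i hi
    · exact hx i h
  smul_mem' := fun _ _ hx i hi => hx i (right_ne_zero_of_mul hi)

theorem finrank_Cs (P : chevE7.Idx → Prop) : finrank k (Cs k P) = cnt P := by
  classical
  rw [cnt, Nat.card_eq_fintype_card, ← finrank_fintype_fun_eq_card k]
  refine (LinearEquiv.ofBijective ((LinearMap.funLeft k k Subtype.val).domRestrict (Cs k P)) ⟨?_, fun f => ?_⟩).finrank_eq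
  · refine (injective_iff_map_eq_zero _).2 fun x hx => Subtype.ext (funext fun i => ?_)
    by_contra h
    exact h (congrFun hx ⟨i, x.2 i h⟩)
  · exact ⟨⟨fun i => if h : P i then f ⟨i, h⟩ else 0, fun i hi => by_contra fun h => hi (dif_neg h)⟩,
      funext fun i => dif_pos i.2⟩

theorem fr_le {U V : Type*} [AddCommGroup U] [Module k U] [AddCommGroup V] [Module k V] [FiniteDimensional k U]
    [FiniteDimensional k V] (f : U →ₗ[k] V) {P R : Submodule k U} {Q : Submodule k V} (h1 : ∀ x ∈ P, f x ∈ Q)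
    (h2 : ∀ x ∈ P, f x = 0 → x ∈ R) : finrank k P ≤ finrank k Q + finrank k R := by
  rw [← (f.domRestrict P).finrank_range_add_finrank_ker, ← Submodule.finrank_map_subtype_eq P]
  refine add_le_add (Submodule.finrank_mono ?_) (Submodule.finrank_mono ?_)
  · rintro _ ⟨x, rfl⟩
    exact h1 x x.2
  · rintro _ ⟨x, hx, rfl⟩
    exact h2 x x.2 hx

variable (k) in
/-- the toral vectors -/
def tvL : (Fin 7 → k) →ₗ[k] (chevE7.Idx → k) where
  toFun := tv
  map_add' l l' := by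
    funext i
    rcases i with i | r
    · rfl
    · exact (add_zero _).symm
  map_smul' := Lb.tv_smul

theorem tv_Lv (β : E) (l : Fin 7 → k) : tv l ∈ Lv k ac β 0 := fun i hi => by
  rcases i with i | r
  · exact lev_inl β i
  · exact absurd rfl hi

theorem chk_CM : ∀ j j' : Fin 7, ∑ i : Fin 7, Lb.CM i j * iC i j' = if j = j' then 2 else 0 := by decide +kernel

theorem pz_top (a : Fin 7 → ℕ) : pz 125 (fun j => a j) = top a := by
  simp only [pz, Lb.rt_mk, Fin.sum_univ_seven, top]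
  simp [Lb.mk]

namespace Dat

variable {p : ℕ} {K : Type v} [Field K] [Fintype K] (D : Dat p K k)

theorem top_Ge (y : chevE7.Idx → k) : y ∈ Ge k ac D.β (-bf D.β (rv 125)) := fun i _ => by
  have h1 : ∀ r < 126, -bf D.β (rv 125) ≤ bf D.β (rv r) := fun r hr => by
    rw [bf_rv _ hr, bf_rv _ (by norm_num), ← Finset.sum_neg_distrib]
    refine Finset.sum_le_sum fun j _ => ?_
    rw [← mul_neg, Lb.rt_mk]
    refine mul_le_mul_of_nonneg_left ?_ (D.dom j)
    rcases Lb.rt_bd r hr with h | h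
    · exact_mod_cast (by have := (h j).1; omega : -(Lb.mk j : ℤ) ≤ rt chevE7 r j)
    · exact_mod_cast (by have := (h j).2; omega : -(Lb.mk j : ℤ) ≤ rt chevE7 r j)
  rcases i with i | r
  · have h2 := Dom.pos D.dom (r := 125) (by norm_num) (by norm_num)
    rw [lev_inl]
    linarith
  · rw [ex_cv_inr]
    exact h1 r r.2

theorem top_le : bf D.β (rv 125) ≤ 17 * D.n := by
  rw [bf_rv _ (by norm_num)]
  calc _ ≤ ∑ i : Fin 7, D.n * (Lb.mk i : ℝ) := Finset.sum_le_sum fun i _ => by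
        rw [Lb.rt_mk, Int.cast_natCast]
        exact mul_le_mul_of_nonneg_right (D.lab i) (Nat.cast_nonneg _)
    _ = _ := by
        rw [← Finset.mul_sum, ← Nat.cast_sum, show ∑ i, Lb.mk i = 17 by decide, mul_comm]
        norm_num

theorem T_tv (l : Fin 7 → k) (i : chevE7.Idx) : D.T (tv l) i = -(exVal l i * D.eb i) := by
  rw [br_anti, Pi.neg_apply, ex_br_tv]

theorem T_tv_zero {l : Fin 7 → k} (hl : ∀ r : Fin chevE7.nroots, D.eb (Sum.inr r) ≠ 0 → rval r (tv l) = 0) :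
    D.T (tv l) = 0 := by
  funext i
  rw [T_tv, Pi.zero_apply, neg_eq_zero]
  rcases i with i | r
  · rw [exVal_inl, zero_mul]
  · by_cases h0 : D.eb (Sum.inr r) = 0
    · rw [h0, mul_zero]
    · rw [exVal_inr, hl r h0, zero_mul]

variable [Fact p.Prime] [CharP k p] [DecidableEq K] [CharP K p]

theorem top_le' : bf D.β (rv 125) ≤ (p - 1 : ℕ) * D.n := by
  have h1 := D.all_Ge (Pi.single (Sum.inr ⟨0, by decide⟩) 1) (Sum.inr ⟨0, by decide⟩) (by
    rw [Pi.single_eq_same]; exact one_ne_zero)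
  rw [ex_cv_inr] at h1
  have h2 : bf D.β (rv 0) = -bf D.β (rv 125) := by rw [← map_neg, ← rv_neg (by norm_num)]
  linarith

theorem tor0 {l : Fin 7 → k} (h0 : D.T (tv l) = 0) : l = 0 := by
  obtain ⟨b, -, hb⟩ := D.ker0 (tv_Lv _ l) (D.wt_tv l) h0
  refine Lb.gram Fact.out D.h11 fun l' hl => ?_
  rw [hb]
  refine D.T_pow_adj (by have := D.h11; omega) b (D.T_tv_zero fun r hr => hl r r.2 ?_)
  have h1 := congrFun h0 (Sum.inr r)
  rw [T_tv, Pi.zero_apply, neg_eq_zero] at h1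
  exact (mul_eq_zero.1 h1).resolve_right hr

theorem rk7 : Lb.Rk7 fun r => ∃ hr : r < 126, D.eb (Sum.inr ⟨r, hr⟩) ≠ 0 := by
  have key : ∀ (N : ℕ) (l : Fin 7 → ℤ), (∀ r < 126, (∃ hr : r < 126, D.eb (Sum.inr ⟨r, hr⟩) ≠ 0) →
      ∑ i, rc r i * l i = 0) → ∀ i, (p : ℤ) ^ N ∣ l i := by
    intro N
    induction N with
    | zero => exact fun l _ i => by rw [pow_zero]; exact one_dvd _
    | succ N ih =>
      intro l hl
      have h1 : (fun i => (l i : k)) = 0 := D.tor0 (D.T_tv_zero fun r hr => by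
        have h2 := congrArg (Int.cast : ℤ → k) (hl r r.2 ⟨r.2, hr⟩)
        push_cast at h2
        exact h2)
      choose l' hl' using fun i => (CharP.intCast_eq_zero_iff k p (l i)).1 (congrFun h1 i)
      intro i
      rw [hl' i, pow_succ']
      refine mul_dvd_mul_left _ (ih l' (fun r hr hs => ?_) i)
      have h3 := hl r hr hs
      simp only [hl', mul_left_comm _ (p : ℤ), ← Finset.mul_sum] at h3
      exact (mul_eq_zero.1 h3).resolve_left (Int.natCast_ne_zero.2 (Fact.out : p.Prime).ne_zero)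
  refine Lb.rk7_of_int fun l hl => funext fun i => Int.eq_zero_of_dvd_of_natAbs_lt_natAbs (key (l i).natAbs l hl i) ?_
  rw [Int.natAbs_pow, Int.natAbs_natCast]
  exact Nat.lt_pow_self (Fact.out : p.Prime).one_lt

theorem labels : ∃ (m : ℕ) (a : Fin 7 → ℕ), (m = 3 ∨ m = 4) ∧ (∀ j, a j ≤ m) ∧ ∀ j, m * D.β j = a j * D.n := by
  obtain ⟨m, h0, h4, hz⟩ := Lb.alc_real (β := D.β) D.npos.ne' (D.rk7.mono fun r hr ⟨_, h⟩ =>
    ⟨1, by rw [Int.cast_one, one_mul, ← ex_cv_inr ⟨r, hr⟩]; exact D.eb_mem _ h⟩)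
  have key : ∀ m : ℕ, (∀ j, ∃ z : ℤ, m * D.β j = z * D.n) → ∃ a : Fin 7 → ℕ, (∀ j, a j ≤ m) ∧ ∀ j, m * D.β j = a j * D.n := by
    intro m hz
    choose z hz using hz
    have h1 : ∀ j, 0 ≤ z j := fun j => by
      have h2 : 0 ≤ (z j : ℝ) * D.n := hz j ▸ mul_nonneg (Nat.cast_nonneg _) (D.dom j)
      exact_mod_cast nonneg_of_mul_nonneg_left h2 D.npos
    have h2 : ∀ j, z j ≤ m := fun j => by
      have h2 : (z j : ℝ) * D.n ≤ m * D.n := hz j ▸ mul_le_mul_of_nonneg_left (D.lab j) (Nat.cast_nonneg _)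
      exact_mod_cast le_of_mul_le_mul_right h2 D.npos
    exact ⟨fun j => (z j).toNat, fun j => Int.toNat_le.2 (h2 j), fun j => by
      rw [hz j, ← Int.cast_natCast, Int.toNat_of_nonneg (h1 j)]⟩
  by_cases h3 : m = 3
  · obtain ⟨a, ha⟩ := key m hz
    exact ⟨m, a, Or.inl h3, ha⟩
  · obtain ⟨c, hc⟩ : m ∣ 4 := by interval_cases m <;> simp_all
    obtain ⟨a, ha⟩ := key 4 fun j => by
      obtain ⟨z, e⟩ := hz j
      exact ⟨c * z, by rw [hc]; push_cast; linear_combination c * e⟩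
    exact ⟨4, a, Or.inr rfl, ha⟩

section
variable {m : ℕ} {a : Fin 7 → ℕ} (hm : 0 < m) (ha : ∀ j, m * D.β j = a j * D.n)
include ha

theorem lev_rv {r : ℕ} (hr : r < 126) : m * bf D.β (rv r) = pz r (fun j => a j) * D.n := by
  rw [bf_rv _ hr, pz, Finset.mul_sum, Int.cast_sum, Finset.sum_mul]
  refine Finset.sum_congr rfl fun j _ => ?_
  push_cast
  linear_combination (rt chevE7 r j : ℝ) * ha j

include hm in
theorem lev_iff {z : ℤ} {d : ℝ} (hd : m * d = z * D.n) (i : chevE7.Idx) : bf D.β (cv (ac i)) = d ↔ il a i = z := by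
  have h1 : m * bf D.β (cv (ac i)) = il a i * D.n := by
    rcases i with i | r
    · rw [lev_inl, mul_zero]
      exact (zero_mul _).symm.trans (congrArg (· * D.n) Int.cast_zero.symm)
    · rw [ex_cv_inr]
      exact D.lev_rv ha r.2
  refine ⟨fun e => ?_, fun e => mul_left_cancel₀ (Nat.cast_ne_zero.2 hm.ne') (by rw [h1, e, hd])⟩
  rw [e, hd] at h1
  exact_mod_cast (mul_right_cancel₀ D.npos.ne' h1).symm

include hm in
theorem fin_of (hF : FIN) (hp : p = 11 ∨ p = 13 ∨ p = 17) (h34 : m = 3 ∨ m = 4) (hb : ∀ j, a j ≤ m)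
    (h1 : (p - 2 : ℕ) * D.n ≤ bf D.β (rv 125)) : top a = (p - 2) * m ∧ ¬ (p : ℤ) ∣ nrm a := by
  have hm' : (0 : ℝ) < m := Nat.cast_pos.2 hm
  have h2 := D.lev_rv ha (r := 125) (by norm_num)
  rw [pz_top, Int.cast_natCast] at h2
  have e0 := D.lev_iff hm ha (z := 0) (d := 0) (by rw [mul_zero, Int.cast_zero, zero_mul])
  have e1 := D.lev_iff hm ha (z := m) (d := D.n) (by rw [Int.cast_natCast])
  have hT : ∀ x ∈ Cs k fun i => il a i = 0 ∧ ∀ c : Kˣ, ((ch (ac i) (D.t c) : kˣ) : k) = D.ι c ^ (0 : ℤ),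
      x ∈ Lv k ac D.β 0 ∧ Wt D.ι D.ρ 0 x := fun x hx =>
    ⟨fun i hi => (e0 i).2 (hx i hi).1, D.wt_iff.2 fun i hi => (hx i hi).2⟩
  have hQ : ∀ x, x ∈ Lv k ac D.β 0 ∧ Wt D.ι D.ρ 0 x →
      D.T x ∈ Cs k fun i => il a i = m ∧ ∀ c : Kˣ, ((ch (ac i) (D.t c) : kˣ) : k) = D.ι c ^ (2 : ℤ) := fun x hx i hi =>
    ⟨(e1 i).1 ((br_Lv D.eb_mem hx.1 i hi).trans (add_zero _)), D.wt_iff.1 (fun c => by
      rw [h_T, hx.2 c, zpow_zero, one_smul]) i hi⟩
  refine hF p m a (fun i => il a i = 0 ∧ ∀ c : Kˣ, ((ch (ac i) (D.t c) : kˣ) : k) = D.ι c ^ (0 : ℤ))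
    (fun i => il a i = m ∧ ∀ c : Kˣ, ((ch (ac i) (D.t c) : kˣ) : k) = D.ι c ^ (2 : ℤ)) hp h34 hb ?_ ?_ (fun z hz => ?_)
    (fun i hi => hi.1) (fun i => ⟨rfl, fun c => by rw [ac_inl, ch_zero, zpow_zero, Units.val_one]⟩)
    (fun r s t e hr hs => ⟨(e0 t).1 ?_, fun c => ?_⟩) ?_ ?_ fun ζ hζ => ?_
  · have h3 := mul_le_mul_of_nonneg_left h1 hm'.le
    rw [h2, ← mul_assoc] at h3
    exact_mod_cast (mul_comm _ _).trans_le (le_of_mul_le_mul_right h3 D.npos)
  · have h3 := mul_le_mul_of_nonneg_left D.top_le' hm'.le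
    rw [h2, ← mul_assoc] at h3
    exact_mod_cast (le_of_mul_le_mul_right h3 D.npos).trans_eq (mul_comm _ _)
  · have e2 := D.lev_iff hm ha (z := z) (d := z * D.n / m) (by field_simp)
    have e3 := D.lev_iff hm ha (z := z + m) (d := D.n + z * D.n / m) (by push_cast; field_simp; ring)
    have h3 := fr_le D.T (P := Cs k fun i => il a i = z) (Q := Cs k fun i => il a i = z + m) (R := ⊥)
      (fun x hx i hi => (e3 i).1 (br_Lv D.eb_mem (fun j hj => (e2 j).2 (hx j hj)) i hi))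
      fun x hx h0 => D.inj (div_neg_of_neg_of_pos (mul_neg_of_neg_of_pos (Int.cast_lt_zero.2 hz) D.npos) hm')
        (fun j hj => (e2 j).2 (hx j hj)) h0
    rwa [finrank_Cs, finrank_Cs, finrank_bot, add_zero] at h3
  · have h3 := (e1 r).2 hr.1
    rw [e, cv_add, map_add, (e1 s).2 hs.1] at h3
    linarith
  · have h3 := hr.2 c
    rw [e, ch_add, Units.val_mul, hs.2 c] at h3
    rw [zpow_zero]
    exact (mul_eq_left₀ (zpow_ne_zero _ (ι_ne D.ι c))).1 h3
  · have e2 := D.lev_iff hm ha (z := -(((p - 1) * m : ℕ) : ℤ)) (d := -((p - 1 : ℕ) * D.n)) (by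
      rw [Int.cast_neg, Int.cast_natCast, Nat.cast_mul]; ring)
    have h3 := fr_le D.T (R := (Cs k fun i => il a i = -(((p - 1) * m : ℕ) : ℤ)).map (D.T ^ (p - 1)))
      (fun x hx => hQ x (hT x hx)) fun x hx h0 => by
        obtain ⟨b, h4, h5⟩ := D.ker0 (hT x hx).1 (hT x hx).2 h0
        exact ⟨b, fun i hi => (e2 i).1 (h4 i hi), h5.symm⟩
    have h4 := h3.trans (Nat.add_le_add_left (Submodule.finrank_map_le _ _) _)
    rwa [finrank_Cs, finrank_Cs, finrank_Cs] at h4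
  · have h3 := fr_le (D.T ∘ₗ tvL k) (P := ⊤) (R := ⊥) (fun l _ => hQ _ ⟨tv_Lv _ l, D.wt_tv l⟩) fun l _ h0 => D.tor0 h0
    rwa [finrank_Cs, finrank_top, finrank_fin_fun, finrank_bot, add_zero] at h3
  · have h3 := D.rk7 (cv ζ) fun r hr ⟨_, h⟩ => by
      have h4 := congrArg (Int.cast : ℤ → ℝ) (hζ ⟨r, hr⟩ ⟨(e1 _).1 (D.eb_mem _ h), D.wt_iff.1 D.eb_wt _ h⟩)
      rw [pz, Int.cast_sum, Int.cast_zero] at h4
      rw [bf_rv _ hr, ← h4]
      exact Finset.sum_congr rfl fun j _ => by rw [Int.cast_mul, mul_comm]; rfl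
    funext j
    exact Int.cast_eq_zero.1 (congrFun h3 j)

include hm in
theorem norm_zero (hm4 : m ≤ 4) (h1 : bf D.β (rv 125) = (p - 2 : ℕ) * D.n) {b : chevE7.Idx → k}
    (hb : D.e = (D.N ^ (p - 1)) b) : (p : ℤ) ∣ nrm a := by
  have h11 := D.h11
  have h2 := D.h2
  have hn := D.npos
  have hmk : (m : k) ≠ 0 := fun e => absurd (Nat.le_of_dvd hm ((CharP.cast_eq_zero_iff k p m).1 e)) (by omega)
  obtain ⟨l, hl⟩ : ∃ l : Fin 7 → k, ∀ i, l i = (2 * m : k)⁻¹ * ∑ j : Fin 7, (iC i j : k) * a j := ⟨_, fun _ => rfl⟩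
  have hv : ∀ j, Lb.vals l j = (m : k)⁻¹ * a j := fun j => by
    have h3 : ∀ j' : Fin 7, ∑ i : Fin 7, (Lb.CM i j : k) * iC i j' = if j = j' then 2 else 0 := fun j' => by
      have h4 := congrArg (Int.cast : ℤ → k) (chk_CM j j')
      push_cast at h4
      exact h4
    rw [Lb.vals_apply]
    simp only [hl, mul_left_comm _ (2 * m : k)⁻¹, ← Finset.mul_sum]
    simp only [Finset.mul_sum _ _ (Lb.CM _ j : k), ← mul_assoc]
    rw [Finset.sum_comm]
    simp only [← Finset.sum_mul, h3, ite_mul, zero_mul, Finset.sum_ite_eq, Finset.mem_univ, if_true]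
    field_simp
  have h3 : D.T (tv l) = -D.eb := funext fun i => by
    rw [T_tv, Pi.neg_apply, neg_inj]
    by_cases h0 : D.eb i = 0
    · rw [h0, mul_zero]
    have h4 := (D.lev_iff hm ha (z := m) (d := D.n) (by rw [Int.cast_natCast]) i).1 (D.eb_mem i h0)
    rcases i with i | r
    · exact absurd (show (0 : ℤ) = m from h4) (by omega)
    · have h5 := congrArg (Int.cast : ℤ → k) (show pz r (fun j => a j) = m from h4)
      rw [pz] at h5
      push_cast at h5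
      rw [exVal_inr, Lb.rval_eq r.2, Lb.pR]
      simp only [hv, mul_left_comm _ (m : k)⁻¹, ← Finset.mul_sum]
      rw [h5, inv_mul_cancel₀ hmk, one_mul]
  obtain ⟨q, rfl⟩ : ∃ q, p = q + 4 := ⟨p - 4, by omega⟩
  have h4 := D.N_pow_Ge (D.top_Ge b) (q + 3)
  rw [h1, show -(((q + 4 - 2 : ℕ) : ℝ) * D.n) + (q + 3 : ℕ) * D.n = D.n by
    rw [show q + 4 - 2 = q + 2 from rfl]; push_cast; ring, show q + 3 = q + 4 - 1 from rfl, ← hb] at h4
  obtain ⟨c, hc, h5⟩ : ∃ c ∈ Lv k ac D.β (-(2 * D.n)), D.eb = D.T (D.T (D.T c)) := by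
    have h6 := (D.N_pow_Ge (D.top_Ge b) q).2
    rw [h1, show -(((q + 4 - 2 : ℕ) : ℝ) * D.n) + q * D.n = -(2 * D.n) by
      rw [show q + 4 - 2 = q + 2 from rfl]; push_cast; ring] at h6
    refine ⟨_, lv_mem ((D.N ^ q) b), ?_⟩
    rw [h6, eb, h4.2, show q + 4 - 1 = 3 + q by omega, pow_add]
    rfl
  have h6 : D.T (D.T c) ∈ Lv k ac D.β 0 := by
    have h7 := br_Lv D.eb_mem (br_Lv D.eb_mem hc)
    rwa [show D.n + (D.n + -(2 * D.n)) = 0 by ring] at h7
  obtain ⟨z, h7, h8⟩ := D.ker0 (D.pj_Lv 0 (add_mem (tv_Lv _ l) h6)) (pj_wt _ _ _ _) (by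
    rw [pj_comm D.ι D.ρ D.h_T, map_add, h3, ← h5, neg_add_cancel, map_zero])
  have h9 : z = 0 := Br.eq_zero_of_Lv_Gt h7 (Ge_le_Gt (by
    rw [h1, show q + 4 - 2 = q + 2 from rfl, show q + 4 - 1 = q + 3 from rfl]; push_cast; linarith) (D.top_Ge z))
  have h10 := pj_adj D.ι D.ρ D.hB 0 (tv l + D.T (D.T c)) (tv l)
  rw [h8, h9, map_zero, map_zero, LinearMap.zero_apply, neg_zero, pj_of D.ι D.ρ (q + 4) (D.wt_tv l), map_add,
    LinearMap.add_apply, D.T_adj, D.T_adj, LinearMap.neg_apply, LinearMap.neg_apply, h3, neg_neg, br_self, neg_zero,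
    map_zero, add_zero, Lb.kf_tv] at h10
  rw [← CharP.intCast_eq_zero_iff k, nrm]
  push_cast
  simp only [hl, hv] at h10
  have h12 : ∑ i : Fin 7, ((2 * m : k)⁻¹ * ∑ j : Fin 7, (iC i j : k) * a j) * ((m : k)⁻¹ * a i) =
      (2 * m : k)⁻¹ * (m : k)⁻¹ * ∑ i : Fin 7, ∑ j : Fin 7, (a i : k) * iC i j * a j := by
    rw [Finset.mul_sum]
    refine Finset.sum_congr rfl fun i _ => ?_
    simp only [mul_assoc, ← Finset.mul_sum]
    ring
  rw [h12] at h10
  exact (mul_eq_zero.1 h10.symm).resolve_left (mul_ne_zero (inv_ne_zero (mul_ne_zero h2 hmk)) (inv_ne_zero hmk))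

end

/-- **the split triple** -/
theorem main (hF : FIN) (h19 : p ≠ 19) : ∃ e x f, D.Tri e x f ∧ e ≠ 0 ∧ e ∈ Ge k ac D.β D.n := by
  obtain ⟨e, x, f, b, he, ht⟩ := D.exists_tri
  have h11 := D.h11
  have hn := D.npos
  have h1 := (D.N_pow_Ge (D.top_Ge b) (p - 1)).1
  have hp : ((p - 1 : ℕ) : ℝ) = (p - 2 : ℕ) + 1 := by
    rw [show p - 1 = p - 2 + 1 by omega, Nat.cast_succ]
  rcases lt_or_ge (bf D.β (rv 125)) ((p - 2 : ℕ) * D.n) with h | h
  · have h2 : (D.N ^ (p - 1)) b ∈ Gt k ac D.β D.n := Ge_le_Gt (by rw [hp]; linarith) h1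
    refine ⟨e, x, f, ht, fun h0 => D.ene ?_, he ▸ add_mem D.ege (Gt_le_Ge h2)⟩
    rw [eq_neg_of_add_eq_zero_left (he.symm.trans h0)]
    exact neg_mem h2
  · obtain ⟨m, a, h34, hb, ha⟩ := D.labels
    have hm : 0 < m := by omega
    have h2 : p - 2 ≤ 17 := by exact_mod_cast le_of_mul_le_mul_right (h.trans D.top_le) hn
    have h3 : p = 11 ∨ p = 13 ∨ p = 17 := by
      have h4 : p.Prime := Fact.out
      have h5 : p ≤ 19 := by omega
      interval_cases p <;> first | omega | exact absurd h4 (by norm_num)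
    obtain ⟨h4, h5⟩ := D.fin_of hm ha hF h3 h34 hb h
    have h6 := D.lev_rv ha (r := 125) (by norm_num)
    rw [pz_top, Int.cast_natCast, h4, Nat.cast_mul, mul_right_comm, mul_comm _ (m : ℝ)] at h6
    have h7 := mul_left_cancel₀ (Nat.cast_ne_zero.2 hm.ne') h6
    refine ⟨e, x, f, ht, fun h0 => h5 (D.norm_zero hm ha (by omega) h7 (b := -b) ?_),
      he ▸ add_mem D.ege (Ge_mono (by rw [hp, h7]; linarith) h1)⟩
    rw [map_neg]
    exact eq_neg_of_add_eq_zero_left (he.symm.trans h0)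

end Dat

end A1

namespace Sit

variable {p a b : ℕ} {F : Type u} {K : Type v} {k : Type u} [Field F] [Fintype F] [Field K] [Fintype K] [Field k]
  (S : Sit p a b F K k)

theorem a1_mem_Fgt (f : S.Frame) {d : ℝ} {x : chevE7.Idx → k} :
    x ∈ S.Fgt d ↔ adM k f.g⁻¹ *ᵥ x ∈ Gt k ac S.β d := by
  rw [br_mem_Ft]
  constructor
  · intro h1
    have h2 := wrep_L.Gt_stab (inv_mem f.hg) h1
    rwa [← mulVec_mul, _root_.mul_inv_rev, inv_inv, mul_inv_cancel_right] at h2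
  · intro h1
    have h2 := wrep_L.Gt_stab f.hg h1
    rwa [← mulVec_mul, mul_inv_cancel_right] at h2

/-- **A1** from the finite check -/
theorem a1_split_of (hF : A1.FIN) (ha : a = 1) (h0 : S.NoFix) : S.Split := by
  classical
  subst ha
  have := S.chark
  have := S.charK
  have : Fact p.Prime := ⟨S.prime⟩
  have h11 : 11 ≤ p := by simpa using S.eleven
  have h5 : 5 ≤ p := by omega
  have h2 := two_ne (S.br_h12 h5)
  obtain ⟨f⟩ := S.exists_frame
  choose t ht using f.ht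
  obtain ⟨φ, hφ⟩ : ∃ φ : SpecialLinearGroup (Fin 2) K →* Gh k, ∀ x, φ x = f.g⁻¹ * S.ψ x * f.g :=
    ⟨(MulAut.conj f.g⁻¹).toMonoidHom.comp S.ψ, fun x => by
      show f.g⁻¹ * S.ψ x * f.g⁻¹⁻¹ = _
      rw [inv_inv]⟩
  have e1 : ∀ x y, adM k f.g *ᵥ A1.rep φ x y = adM k (S.ψ x) *ᵥ (adM k f.g *ᵥ y) := fun x y => by
    rw [A1.rep_apply, hφ, mulVec_mul, mulVec_mul, mulVec_inv']
  have e2 : ∀ x y, A1.rep φ x (adM k f.g⁻¹ *ᵥ y) = adM k f.g⁻¹ *ᵥ (adM k (S.ψ x) *ᵥ y) := fun x y => by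
    rw [A1.rep_apply, hφ, mulVec_mul, mulVec_mul, mulVec_inv']
  have e3 : ∀ y, Dm S.ι (A1.rep φ) 1 y = adM k f.g⁻¹ *ᵥ Dm S.ι S.RL 1 (adM k f.g *ᵥ y) := fun y => by
    rw [← toLin'_apply (adM k f.g⁻¹), R2.H28.SL2.Dm_comm S.ι S.RL (A1.rep φ) _ fun x y => by
      rw [toLin'_apply, toLin'_apply, e2, br_RL], toLin'_apply, mulVec_inv]
  have e4 : ∀ {d y}, y ∈ Ge k ac S.β d → adM k f.g *ᵥ y ∈ S.Fg d := fun hy => f.mem_Fg.2 (by rwa [mulVec_inv])
  obtain ⟨j, hj, hne⟩ := S.br_exists_e h5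
  obtain rfl : j = 0 := by omega
  obtain ⟨e, x, f', ⟨t1, t2, t3, t4, t5, t6⟩, h3, h4⟩ := A1.Dat.main (p := p)
    { ι := S.ι
      φ := φ
      β := S.β
      n := S.nn
      e := adM k f.g⁻¹ *ᵥ S.br_E 1
      t := t
      card := S.cardK.trans (pow_one p)
      h11 := h11
      npos := S.nn_pos
      dom := S.β_dom
      lab := S.br_label h5
      tor := fun c => by rw [hφ, ht]; group
      nofix := fun y hy => by
        rw [← mulVec_inv (adM k) f.g y, h0 (adM k f.g *ᵥ y) fun x => by rw [← e1, hy], mulVec_zero]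
      ege := f.mem_Fg.1 (S.br_E_mem h5 1)
      ene := fun h => hne (S.br_gr_of_Ft ((S.a1_mem_Fgt f).2 h))
      efix := fun s => by rw [e2, S.br_E_fix h5]
      ewt := fun c => by
        rw [e2, S.br_E_wt h5 (by rw [S.cardK, pow_one]; omega), mulVec_smul, pow_one, zpow_ofNat]
      lead := fun d y hy => by
        have h1 := (S.a1_mem_Fgt f).1 (S.br_D_g h5 le_rfl (e4 hy))
        rwa [mulVec_sub, adM_br h2, mulVec_inv, ← e3] at h1
      step := fun d hd y hy h => by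
        have h1 := (S.a1_mem_Fgt f).1 (S.br_j1_step h5 hd (e4 hy) fun j hj _ => (S.a1_mem_Fgt f).2 (by
          obtain rfl : j = 0 := by omega
          rwa [pow_zero, ← e3]))
        rwa [mulVec_inv] at h1 } hF (by simpa using S.ne19)
  dsimp only [A1.Dat.ρ] at t1 t2 t3 t4 t5 t6
  refine ⟨0, adM k f.g *ᵥ e, adM k f.g *ᵥ x, adM k f.g *ᵥ f', one_pos, ⟨fun h => h3 ?_, fun s => ?_, fun s => ?_,
    fun s => ?_, ?_, ?_, fun c => ?_⟩, e4 h4⟩
  · rw [← mulVec_inv (adM k) f.g e, h, mulVec_zero]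
  · rw [← e1, t1]
  · rw [← e1, t2, mulVec_sub, mulVec_smul, pow_zero, pow_one]
  · rw [← e1, t3, mulVec_sub, mulVec_add, mulVec_smul, mulVec_smul, pow_zero, pow_one]
  · rw [← e1, t4, mulVec_neg]
  · rw [← e1, t5, mulVec_neg]
  · rw [← e1, t6, mulVec_smul, pow_zero, pow_one]

end Sit

end Cfsg.Agent.E7P
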