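import Cfsg.Agent.E7P.A1.Mod
import Cfsg.Agent.E7P.Br.Api
import Cfsg.Agent.E7P.Ex.Irl

/-!
# S5932, task A1: the levels (helper13)

`Dat` : the situation `a = 1` in a frame.  `N = D₁` raises the levels by `n`, with leading term `T = ad eb`.
-/

set_option autoImplicit false
set_option maxRecDepth 100000
set_option linter.unusedSectionVars false

namespace Cfsg.Agent.E7P.A1

open Cfsg Cfsg.Lie Matrix Module
open Cfsg.Agent.R2.T1 Cfsg.Agent.E7P.Br
open Cfsg.Agent.E7P.Kf hiding Lv Lv_le_Ge eq_zero_of_Lv_Gt mem_Lv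
open Cfsg.Agent.H943.SL2Rel (u w h)
open Cfsg.Agent.R2.H28.SL2 (Dm)

universe u v

variable {k : Type u} [Field k]

theorem lev_inl (β : E) (i : Fin chevE7.rank) : bf β (cv (ac (Sum.inl i))) = 0 := by rw [ac_inl, cv_zero, map_zero]

theorem kf_zero (β : E) {x y : chevE7.Idx → k}
    (h : ∀ i j, x i ≠ 0 → y j ≠ 0 → bf β (cv (ac i)) + bf β (cv (ac j)) ≠ 0) : kf k x y = 0 := by
  rw [kf_apply]
  refine Finset.sum_eq_zero fun i _ => ?_
  by_contra h0
  obtain ⟨j, h1, h2⟩ := exists_col (right_ne_zero_of_mul h0)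
  refine h i j (left_ne_zero_of_mul h0) h2 ?_
  rcases i with i | r <;> rcases j with j | s
  · rw [lev_inl, lev_inl, add_zero]
  · exact absurd (KM_lr i s) h1
  · exact absurd (KM_rl r j) h1
  · rw [KM_rr] at h1
    have h3 : s.val = 125 - r.val := by
      by_contra h3
      exact h1 (if_neg h3)
    rw [ex_cv_inr, ex_cv_inr, h3, rv_neg r.2, map_neg, add_neg_cancel]

theorem lv_br' {β : E} {n : ℝ} {x : chevE7.Idx → k} (hx : x ∈ Lv k ac β n) (d : ℝ) (y : chevE7.Idx → k) :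
    lv ac β (d + n) (br k x y) = br k x (lv ac β d y) := by
  rw [pi_eq_sum_univ' y, map_sum, map_sum, map_sum, map_sum]
  refine Finset.sum_congr rfl fun i _ => ?_
  have h1 : (Pi.single i 1 : chevE7.Idx → k) ∈ Lv k ac β (bf β (cv (ac i))) := fun j hj => by
    by_cases e : j = i
    · rw [e]
    · exact absurd (Pi.single_eq_of_ne e _) hj
  rw [map_smul, map_smul, map_smul, map_smul]
  by_cases e : bf β (cv (ac i)) = d
  · rw [e] at h1
    rw [lv_of_Lv h1, lv_of_Lv (add_comm n d ▸ br_Lv hx h1)]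
  · rw [lv_of_ne h1 e, lv_of_ne (br_Lv hx h1) (fun e' => e (by linarith)), map_zero]

/-- the adjoint module -/
noncomputable def rep {K : Type v} [Field K] (φ : SpecialLinearGroup (Fin 2) K →* Gh k) :
    Representation k (SpecialLinearGroup (Fin 2) K) (chevE7.Idx → k) := MonoidHom.comp (L k) φ

theorem rep_apply {K : Type v} [Field K] (φ : SpecialLinearGroup (Fin 2) K →* Gh k) (x : SpecialLinearGroup (Fin 2) K)
    (y : chevE7.Idx → k) : rep φ x y = adM k (φ x) *ᵥ y := L_mulVec _ _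

/-- **the situation in a frame** -/
structure Dat (p : ℕ) (K : Type v) (k : Type u) [Field K] [Fintype K] [Field k] where
  ι : K →+* k
  φ : SpecialLinearGroup (Fin 2) K →* Gh k
  β : E
  n : ℝ
  e : chevE7.Idx → k
  t : Kˣ → Fin chevE7.rank → kˣ
  card : Fintype.card K = p
  h11 : 11 ≤ p
  npos : 0 < n
  dom : ∀ i, 0 ≤ β i
  lab : ∀ i, β i ≤ n
  tor : ∀ c, φ (h c) = Phi k (t c)
  nofix : ∀ y, (∀ x, rep φ x y = y) → y = 0
  ege : e ∈ Ge k ac β n
  ene : e ∉ Gt k ac β n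
  efix : ∀ s, rep φ (u s) e = e
  ewt : Wt ι (rep φ) 2 e
  lead : ∀ d, ∀ y ∈ Ge k ac β d, Dm ι (rep φ) 1 y - br k e y ∈ Gt k ac β (d + n)
  step : ∀ d < 0, ∀ y ∈ Ge k ac β d, Dm ι (rep φ) 1 y ∈ Gt k ac β (d + n) → y ∈ Gt k ac β d

namespace Dat

variable {p : ℕ} {K : Type v} [Field K] [Fintype K] (D : Dat p K k)

/-- the module -/
noncomputable abbrev ρ : Representation k (SpecialLinearGroup (Fin 2) K) (chevE7.Idx → k) := rep D.φ

/-- the operator `D₁` -/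
noncomputable abbrev N : Module.End k (chevE7.Idx → k) := Dm D.ι D.ρ 1

/-- the leading term -/
noncomputable def eb : chevE7.Idx → k := lv ac D.β D.n D.e

/-- the leading term -/
noncomputable abbrev T : Module.End k (chevE7.Idx → k) := br k D.eb

theorem eb_mem : D.eb ∈ Lv k ac D.β D.n := lv_mem _

theorem hB (g : SpecialLinearGroup (Fin 2) K) (x y : chevE7.Idx → k) : kf k (D.ρ g x) (D.ρ g y) = kf k x y := by
  rw [rep_apply, rep_apply, kf_adM]

theorem h_apply (c : Kˣ) (y : chevE7.Idx → k) (i : chevE7.Idx) : D.ρ (h c) y i = (ch (ac i) (D.t c) : kˣ) * y i := by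
  rw [rep_apply, D.tor, wrep_L.tor, mulVec_diagonal]

theorem wt_iff {j : ℤ} {x : chevE7.Idx → k} :
    Wt D.ι D.ρ j x ↔ ∀ i, x i ≠ 0 → ∀ c : Kˣ, ((ch (ac i) (D.t c) : kˣ) : k) = D.ι c ^ j := by
  refine ⟨fun hx i hi c => mul_right_cancel₀ hi ((D.h_apply c x i).symm.trans (congrFun (hx c) i)),
    fun hx c => funext fun i => ?_⟩
  rw [h_apply, Pi.smul_apply, smul_eq_mul]
  by_cases hi : x i = 0
  · rw [hi, mul_zero, mul_zero]
  · rw [hx i hi]

theorem wt_tv (l : Fin 7 → k) : Wt D.ι D.ρ 0 (tv l) := D.wt_iff.2 fun i hi c => by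
  rcases i with i | r
  · rw [ac_inl, ch_zero, zpow_zero, Units.val_one]
  · exact absurd rfl hi

theorem eb_wt : Wt D.ι D.ρ 2 D.eb := D.wt_iff.2 fun i hi => D.wt_iff.1 D.ewt i (lv_ne hi).2

theorem pj_Ge (j : ℤ) {d : ℝ} {x : chevE7.Idx → k} [DecidableEq K] (hx : x ∈ Ge k ac D.β d) :
    pj D.ι D.ρ j x ∈ Ge k ac D.β d :=
  pj_mem _ _ (W := Ge k ac D.β d) (fun c y hy i hi => hy i (by rw [h_apply] at hi; exact right_ne_zero_of_mul hi)) j hx

theorem pj_Lv (j : ℤ) {d : ℝ} {x : chevE7.Idx → k} [DecidableEq K] (hx : x ∈ Lv k ac D.β d) :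
    pj D.ι D.ρ j x ∈ Lv k ac D.β d :=
  pj_mem _ _ (W := Lv k ac D.β d) (fun c y hy i hi => hy i (by rw [h_apply] at hi; exact right_ne_zero_of_mul hi)) j hx

variable {d : ℝ} {y : chevE7.Idx → k}

theorem lead' (hy : y ∈ Ge k ac D.β d) : D.N y - D.T y ∈ Gt k ac D.β (d + D.n) := by
  have h1 := add_mem (D.lead d y hy) (add_comm D.n d ▸ br_Gt (sub_lv_mem D.ege) hy)
  rwa [map_sub, LinearMap.sub_apply, sub_add_sub_cancel] at h1

theorem N_Ge (hy : y ∈ Ge k ac D.β d) : D.N y ∈ Ge k ac D.β (d + D.n) := by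
  have h1 := add_mem (Gt_le_Ge (D.lead' hy)) (add_comm D.n d ▸ br_Ge (Lv_le_Ge D.eb_mem) hy)
  rwa [sub_add_cancel] at h1

theorem N_pow_Ge (hy : y ∈ Ge k ac D.β d) (m : ℕ) : (D.N ^ m) y ∈ Ge k ac D.β (d + m * D.n) ∧
    lv ac D.β (d + m * D.n) ((D.N ^ m) y) = (D.T ^ m) (lv ac D.β d y) := by
  induction m with
  | zero =>
    rw [Nat.cast_zero, zero_mul, add_zero]
    exact ⟨hy, rfl⟩
  | succ m ih =>
    rw [Nat.cast_succ, add_mul, one_mul, ← add_assoc, pow_succ', pow_succ', Module.End.mul_apply, Module.End.mul_apply,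
      lv_eq_of_sub (D.lead' ih.1), lv_br' D.eb_mem, ih.2]
    exact ⟨D.N_Ge ih.1, rfl⟩

theorem inj (hd : d < 0) (hy : y ∈ Lv k ac D.β d) (h0 : D.T y = 0) : y = 0 := by
  have h1 := D.lead' (Lv_le_Ge hy)
  rw [h0, sub_zero] at h1
  exact eq_zero_of_Lv_Gt hy (D.step d hd y (Lv_le_Ge hy) h1)

theorem j1 (hd : d ≤ D.n) (hy : D.N y ∈ Ge k ac D.β d) : y ∈ Ge k ac D.β (d - D.n) :=
  mem_Ge_of_step fun e he h1 => D.step e (by linarith) y h1 (Ge_le_Gt (by linarith) hy)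

theorem j1_pow (hd : d ≤ D.n) (m : ℕ) (hy : (D.N ^ m) y ∈ Ge k ac D.β d) : y ∈ Ge k ac D.β (d - m * D.n) := by
  induction m generalizing y with
  | zero => rwa [Nat.cast_zero, zero_mul, sub_zero]
  | succ m ih =>
    have h1 := mul_nonneg (Nat.cast_nonneg (α := ℝ) m) D.npos.le
    rw [Nat.cast_succ, add_mul, one_mul, ← sub_sub]
    exact D.j1 (by linarith) (ih (by rwa [pow_succ, Module.End.mul_apply] at hy))

variable [Fact p.Prime] [CharP k p]

include D in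
theorem h12 : (12 : k) ≠ 0 := twelve_ne Fact.out (by have := D.h11; omega)

include D in
theorem h2 : (2 : k) ≠ 0 := two_ne D.h12

theorem h_T (c : Kˣ) (x : chevE7.Idx → k) : D.ρ (h c) (D.T x) = D.ι c ^ (2 : ℤ) • D.T (D.ρ (h c) x) := by
  rw [rep_apply, adM_br D.h2, ← rep_apply, ← rep_apply, D.eb_wt c, map_smul, LinearMap.smul_apply]

theorem T_adj (x y : chevE7.Idx → k) : kf k (D.T x) y = kf k x ((-D.T) y) := by
  rw [br_anti, map_neg, LinearMap.neg_apply, kf_br D.h12, LinearMap.neg_apply, map_neg]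

theorem T_pow_adj {m : ℕ} (hm : 0 < m) (x : chevE7.Idx → k) (hy : D.T y = 0) : kf k ((D.T ^ m) x) y = 0 := by
  obtain ⟨m, rfl⟩ := Nat.exists_eq_add_of_lt hm
  rw [pow_succ', Module.End.mul_apply, T_adj, LinearMap.neg_apply, hy, neg_zero, map_zero]

theorem surj_T (hd : 0 < d) (hy : y ∈ Lv k ac D.β d) : ∃ z ∈ Lv k ac D.β (d - D.n), D.T z = y := by
  obtain ⟨z, hz⟩ := mem_range kf_comm (fun _ => kf_nondeg D.h2) D.T_adj (y := y) fun z hz => by
    have h1 : lv ac D.β (-d) z = 0 := D.inj (by linarith) (lv_mem z) (by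
      rw [← lv_br' D.eb_mem, neg_eq_zero.1 hz, map_zero])
    refine kf_zero D.β fun i j hi hj e => hi ?_
    rw [← lv_pos (c := ac) (β := D.β) (d := -d) (by rw [← hy j hj]; linarith) z, h1, Pi.zero_apply]
  exact ⟨_, lv_mem z, by rw [← lv_br' D.eb_mem, sub_add_cancel, hz, lv_of_Lv hy]⟩

theorem surj_N (hd : 0 < d) (hy : y ∈ Ge k ac D.β d) : ∃ z ∈ Ge k ac D.β (d - D.n), D.N z = y := by
  obtain ⟨z, hz⟩ := lev_desc ac D.β (fun z : Ge k ac D.β (d - D.n) => y - D.N z) 0 fun a e h1 h2 => by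
    have h3 : d ≤ e := by
      by_contra h3
      have h4 := D.N_Ge a.2
      rw [sub_add_cancel] at h4
      exact h2 (lv_of_Gt (Ge_le_Gt (not_le.1 h3) (sub_mem hy h4)))
    obtain ⟨z, h4, h5⟩ := D.surj_T (hd.trans_le h3) (lv_mem (y - D.N a))
    refine ⟨a + ⟨z, Ge_mono (by linarith) (Lv_le_Ge h4)⟩, ?_⟩
    have h7 := D.lead' (Lv_le_Ge h4)
    rw [sub_add_cancel, h5] at h7
    have h6 := sub_mem (sub_lv_mem h1) h7
    rwa [Submodule.coe_add, map_add, ← sub_sub, ← sub_sub_sub_cancel_right _ _ (lv ac D.β e (y - D.N a))]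
  exact ⟨z, z.2, (sub_eq_zero.1 hz).symm⟩

variable [DecidableEq K] [CharP K p]

theorem all_Ge (y : chevE7.Idx → k) : y ∈ Ge k ac D.β (-((p - 1 : ℕ) * D.n)) := by
  have h1 := D.j1_pow (y := y) le_rfl p (by rw [N_pow_p D.ι D.ρ p D.card]; exact zero_mem _)
  rwa [Nat.cast_pred (Fact.out : p.Prime).pos, sub_mul, one_mul, neg_sub]

/-- the kernel of the leading term in level and weight zero -/
theorem ker0 (hy : y ∈ Lv k ac D.β 0) (hw : Wt D.ι D.ρ 0 y) (h0 : D.T y = 0) :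
    ∃ b ∈ Lv k ac D.β (-((p - 1 : ℕ) * D.n)), y = (D.T ^ (p - 1)) b := by
  obtain ⟨d, h1, h2⟩ := exists_gap (K := k) ac D.β D.n
  have h3 := D.lead' (Lv_le_Ge hy)
  rw [h0, sub_zero, zero_add] at h3
  obtain ⟨z, h4, h5⟩ := D.surj_N (D.npos.trans h1) (h2 h3)
  obtain ⟨b, hb⟩ := fix_B D.ι D.ρ p D.card (by have := D.h11; omega) D.nofix (v := pj D.ι D.ρ 0 (y - z))
    (by rw [pj_comm D.ι D.ρ (h_N D.ι D.ρ), map_sub, h5, sub_self, map_zero]) (pj_wt _ _ _ _)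
  refine ⟨_, lv_mem b, ?_⟩
  rw [← (D.N_pow_Ge (D.all_Ge b) _).2, neg_add_cancel, ← hb, map_sub, pj_of D.ι D.ρ p hw, map_sub, lv_of_Lv hy,
    lv_of_Gt (Ge_le_Gt (sub_pos.2 h1) (D.pj_Ge 0 h4)), sub_zero]

theorem N_e : D.N D.e = 0 := N_of_fix D.ι D.ρ (by have := D.h11; have := D.card; omega) D.efix

theorem N_adj (x y : chevE7.Idx → k) : kf k (D.N x) y = -kf k x (D.N y) :=
  A1.N_adj D.ι D.ρ D.hB (by rw [D.card]; exact (Fact.out : p.Prime).odd_of_ne_two (by have := D.h11; omega)) x y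

theorem exists_f : ∃ f, Wt D.ι D.ρ (-2) f ∧ D.N (D.N f) = -((2 : k) • D.e) := by
  have h11 := D.h11
  obtain ⟨f, hf⟩ := mem_range kf_comm (fun _ => kf_nondeg D.h2) (T := D.N * D.N) (T' := D.N * D.N)
    (fun x y => by rw [Module.End.mul_apply, Module.End.mul_apply, N_adj, N_adj, neg_neg]) (y := D.e) fun z hz => by
    obtain ⟨b, hb⟩ := fix_B D.ι D.ρ p D.card (by omega) D.nofix (v := D.N (pj D.ι D.ρ (-2) z))
      (by rw [pj_comm D.ι D.ρ (h_N D.ι D.ρ), pj_comm D.ι D.ρ (h_N D.ι D.ρ), ← Module.End.mul_apply D.N, hz, map_zero])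
      (by rw [pj_comm D.ι D.ρ (h_N D.ι D.ρ)]; exact pj_wt _ _ _ _)
    obtain ⟨m, hm⟩ : ∃ m, p - 1 = m + 1 + 1 := ⟨p - 3, by omega⟩
    have h1 := D.j1 (y := pj D.ι D.ρ (-2) z - (D.N ^ (m + 1)) b) le_rfl (by
      rw [map_sub, hb, hm, pow_succ' _ (m + 1), Module.End.mul_apply, sub_self]
      exact zero_mem _)
    have h2 : kf k (pj D.ι D.ρ (-2) z - (D.N ^ (m + 1)) b) D.e = 0 := kf_zero D.β fun i j hi hj => by
      have h3 := h1 i hi
      have h4 := D.ege j hj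
      have h5 := D.npos
      linarith
    rwa [map_sub, LinearMap.sub_apply, pow_succ', Module.End.mul_apply, N_adj, N_e, map_zero, neg_zero, sub_zero,
      pj_adj D.ι D.ρ D.hB, neg_neg, pj_of D.ι D.ρ p D.ewt] at h2
  refine ⟨pj D.ι D.ρ (-2) (-((2 : k) • f)), pj_wt _ _ _ _, ?_⟩
  rw [pj_comm D.ι D.ρ (h_N D.ι D.ρ), pj_comm D.ι D.ρ (h_N D.ι D.ρ), ← Module.End.mul_apply D.N, map_neg, map_smul, hf,
    map_neg, map_smul, show (-2 + 2 + 2 : ℤ) = 2 by norm_num, pj_of D.ι D.ρ p D.ewt]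

/-- a triple -/
def Tri (e x f : chevE7.Idx → k) : Prop := (∀ t, D.ρ (u t) e = e) ∧ (∀ t, D.ρ (u t) x = x - (2 * D.ι t) • e) ∧
  (∀ t, D.ρ (u t) f = f + D.ι t • x - D.ι t ^ 2 • e) ∧ D.ρ w e = -f ∧ D.ρ w x = -x ∧
  ∀ c : Kˣ, D.ρ (h c) e = D.ι c ^ 2 • e

theorem exists_tri : ∃ e x f b, e = D.e + (D.N ^ (p - 1)) b ∧ D.Tri e x f := by
  have h3 : 3 ≤ p := by have := D.h11; omega
  have h2 := D.h2
  obtain ⟨f, hw, hf⟩ := D.exists_f
  have h1 : D.N (D.N (D.N f)) = 0 := by rw [hf, map_neg, map_smul, N_e, smul_zero, neg_zero]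
  obtain ⟨e, x, f', he, h4⟩ := tri D.ι D.ρ h2 (x := D.N f) (f := f) D.efix (fun t => by
    rw [u_three D.ι D.ρ p D.card h3 (by rw [pow_succ', Module.End.mul_apply, pow_two, Module.End.mul_apply, h1, map_zero]),
      h1, hf]
    module) (fun t => by
    rw [u_three D.ι D.ρ p D.card h3 h1, hf]
    match_scalars <;> field_simp) D.ewt (by
    rw [← pj_of D.ι D.ρ p hw, pj_comm D.ι D.ρ (h_N D.ι D.ρ)]
    exact pj_wt _ _ _ _) hw
  obtain ⟨b, hb⟩ := sum_u D.ι D.ρ p D.card (D.ρ w f)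
  exact ⟨e, x, f', b, by rw [he, ← hb, sub_eq_add_neg], h4⟩

end Dat

end Cfsg.Agent.E7P.A1
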