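import Cfsg.Agent.R2.H28.SL2.Ops

/-!
# S5932, task A1: modules for `SL₂(p)` (helper13)

* `ind` : induction of a vector fixed by the Borel subgroup;
* `Wt`, `pj` : the weight spaces of the torus and the projections on them;
* `Nn` : the operator `D₁`, `Nn ^ m = m ! D_m`;
* `tri` : a homomorphism `L(2) → V` from a homomorphism for the Borel subgroup;
* `mem_range` : duality.
-/

set_option autoImplicit false

namespace Cfsg.Agent.E7P.A1

open Matrix Cfsg.Agent.H943.SL2Rel Cfsg.Agent.R2.H28.SL2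
open Cfsg.Agent.H943.SL2Mod (apply_mul)

variable {k : Type*} [Field k] {F : Type*} [Field F] [Fintype F] [DecidableEq F] (ι : F →+* k)
variable {V : Type*} [AddCommGroup V] [Module k V] (ρ : Representation k (SpecialLinearGroup (Fin 2) F) V)

theorem ind {v : V} (hu : ∀ t, ρ (u t) v = v) (hh : ∀ c, ρ (h c) v = v) (g : SpecialLinearGroup (Fin 2) F) :
    ρ g (v + ∑ t, ρ (u t) (ρ w v)) = v + ∑ t, ρ (u t) (ρ w v) := by
  have hw : ∀ c, ρ (h c) (ρ w v) = ρ w v := fun c => by rw [apply_mul, h_w, ← apply_mul, hh]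
  induction g using induct with
  | hu s =>
    rw [map_add, hu, map_sum]
    exact congrArg _ (Fintype.sum_equiv (Equiv.addLeft s) _ _ fun t => by rw [apply_mul, ← u_add]; rfl)
  | hh c =>
    rw [map_add, hh, map_sum]
    exact congrArg _ (Fintype.sum_equiv (Equiv.mulLeft₀ _ (pow_ne_zero 2 c.ne_zero)) _ _ fun t => by
      rw [apply_mul, h_u, ← apply_mul, hw]; rfl)
  | hw =>
    have h1 : ∀ t : F, ρ w (ρ (u t) (ρ w v)) = ρ (u (-t⁻¹)) (ρ w v) + if t = 0 then v - ρ w v else 0 := by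
      intro t
      split_ifs with ht
      · rw [ht, _root_.inv_zero, neg_zero, u_zero, map_one, Module.End.one_apply, apply_mul, w_w, hh, add_sub_cancel]
      · rw [apply_mul, apply_mul, w_u_w t ht, ← apply_mul, ← apply_mul, ← apply_mul, hu, hw, add_zero]
    rw [map_add, map_sum, Finset.sum_congr rfl fun t _ => h1 t, Finset.sum_add_distrib, Finset.sum_ite_eq',
      if_pos (Finset.mem_univ _),
      Fintype.sum_equiv ((Equiv.inv F).trans (Equiv.neg F)) (fun t => ρ (u (-t⁻¹)) (ρ w v))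
        (fun t => ρ (u t) (ρ w v)) fun _ => rfl]
    abel
  | hm a b ha hb => rw [← apply_mul, hb, ha]

/-! ### weights -/

/-- the vectors of weight `j` -/
def Wt (j : ℤ) (x : V) : Prop := ∀ c : Fˣ, ρ (h c) x = ι c ^ j • x

/-- the projection on the vectors of weight `j` -/
def pj (j : ℤ) : V →ₗ[k] V := -∑ c : Fˣ, ι c ^ (-j) • ρ (h c)

omit [Fintype F] [DecidableEq F] in
theorem ι_ne (c : Fˣ) : ι c ≠ 0 := (map_ne_zero ι).2 c.ne_zero

theorem pj_apply (j : ℤ) (x : V) : pj ι ρ j x = -∑ c : Fˣ, ι c ^ (-j) • ρ (h c) x := by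
  simp [pj, LinearMap.sum_apply]

theorem pj_wt (j : ℤ) (x : V) : Wt ι ρ j (pj ι ρ j x) := fun a => by
  rw [pj_apply, map_neg, map_sum, smul_neg, Finset.smul_sum]
  refine congrArg _ (Fintype.sum_equiv (Equiv.mulLeft a) _ _ fun c => ?_)
  rw [map_smul, apply_mul, ← h_mul, Equiv.coe_mulLeft, smul_smul, Units.val_mul, map_mul ι, mul_zpow, ← mul_assoc,
    ← zpow_add₀ (ι_ne ι a), add_neg_cancel, zpow_zero, one_mul]

theorem pj_mem {W : Submodule k V} (hW : ∀ c, ∀ x ∈ W, ρ (h c) x ∈ W) (j : ℤ) {x : V} (hx : x ∈ W) : pj ι ρ j x ∈ W := by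
  rw [pj_apply]
  exact neg_mem (sum_mem fun c _ => W.smul_mem _ (hW c x hx))

theorem pj_comm {T : V →ₗ[k] V} {i : ℤ} (hT : ∀ c x, ρ (h c) (T x) = ι c ^ i • T (ρ (h c) x)) (j : ℤ) (x : V) :
    T (pj ι ρ j x) = pj ι ρ (j + i) (T x) := by
  rw [pj_apply, pj_apply, map_neg, map_sum]
  refine congrArg _ (Finset.sum_congr rfl fun c _ => ?_)
  rw [hT, map_smul, smul_smul, ← zpow_add₀ (ι_ne ι c), neg_add_rev, add_right_comm, neg_add_cancel, zero_add]

theorem pj_adj {B : V →ₗ[k] V →ₗ[k] k} (hB : ∀ g x y, B (ρ g x) (ρ g y) = B x y) (j : ℤ) (x y : V) :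
    B (pj ι ρ j x) y = B x (pj ι ρ (-j) y) := by
  rw [pj_apply, pj_apply, map_neg, map_neg, map_sum, map_sum, LinearMap.neg_apply, LinearMap.sum_apply]
  refine congrArg _ (Fintype.sum_equiv (Equiv.inv Fˣ) _ _ fun c => ?_)
  rw [map_smul, map_smul, LinearMap.smul_apply, ← hB (h c⁻¹), apply_mul, ← h_mul, inv_mul_cancel, h_one, map_one,
    Module.End.one_apply, Equiv.inv_apply, Units.val_inv_eq_inv_val, map_inv₀, neg_neg, _root_.inv_zpow']

theorem N_adj {B : V →ₗ[k] V →ₗ[k] k} (hB : ∀ g x y, B (ρ g x) (ρ g y) = B x y) (h2 : Odd (Fintype.card F)) (x y : V) :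
    B (Dm ι ρ 1 x) y = -B x (Dm ι ρ 1 y) := by
  have h1 : Odd (Fintype.card F - 1 - 1) := by
    have h3 := one_lt (F := F)
    obtain ⟨n, hn⟩ := h2
    exact ⟨n - 1, by omega⟩
  rw [Dm_apply, Dm_apply, map_neg, map_neg, map_sum, map_sum, LinearMap.neg_apply, LinearMap.sum_apply,
    ← Finset.sum_neg_distrib, ← Finset.sum_neg_distrib, ← Finset.sum_neg_distrib]
  refine Fintype.sum_equiv (Equiv.neg F) _ _ fun t => ?_
  rw [map_smul, map_smul, LinearMap.smul_apply, ← hB (u (-t)), apply_mul, ← u_add, neg_add_cancel, u_zero, map_one,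
    Module.End.one_apply, Equiv.neg_apply, map_neg, h1.neg_pow, neg_smul, neg_neg]

theorem N_of_fix (h3 : 2 < Fintype.card F) {x : V} (hx : ∀ t, ρ (u t) x = x) : Dm ι ρ 1 x = 0 := by
  rw [Dm_apply, Finset.sum_congr rfl fun t _ => by rw [hx], ← Finset.sum_smul, psum ι (by omega), if_neg (by omega),
    zero_smul, neg_zero]

theorem h_N (c : Fˣ) (x : V) : ρ (h c) (Dm ι ρ 1 x) = ι c ^ (2 : ℤ) • Dm ι ρ 1 (ρ (h c) x) := by
  have h3 := one_lt (F := F)
  rw [h_Dm ι ρ (by omega), mul_one, zpow_ofNat]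

section
variable (p : ℕ) [Fact p.Prime] [CharP k p] [CharP F p]

include p in
theorem pj_of {j : ℤ} {x : V} (hx : Wt ι ρ j x) : pj ι ρ j x = x := by
  rw [pj_apply, Finset.sum_congr rfl fun c _ => by
    rw [hx c, smul_smul, ← zpow_add₀ (ι_ne ι c), neg_add_cancel, zpow_zero, one_smul], Finset.sum_const,
    Finset.card_univ, Fintype.card_units, ← Nat.cast_smul_eq_nsmul k, cast_Q p, neg_one_smul, neg_neg]

variable (hF : Fintype.card F = p)
include hF

omit [CharP F p] in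
theorem N_Dm {m : ℕ} (h1 : 1 ≤ m) (h2 : m ≤ p - 1) (x : V) :
    Dm ι ρ 1 (Dm ι ρ m x) = ((m + 1 : ℕ) : k) • Dm ι ρ (m + 1) x := by
  have h3 := (Fact.out : p.Prime).two_le
  rw [Dm_mul ι ρ le_rfl h1 (by omega) (by omega), add_comm 1 m, Nat.choose_one_right, hF, Nat.cast_sub h2,
    Nat.cast_sub (by omega), CharP.cast_eq_zero]
  congr 1
  push_cast
  ring

omit [CharP F p] in
theorem N_pow {m : ℕ} (h1 : 1 ≤ m) (h2 : m ≤ p) (x : V) : (Dm ι ρ 1 ^ m) x = (m.factorial : k) • Dm ι ρ m x := by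
  induction m, h1 using Nat.le_induction with
  | base => rw [pow_one, Nat.factorial_one, Nat.cast_one, one_smul]
  | succ m h1 ih =>
    rw [pow_succ', Module.End.mul_apply, ih (by omega), map_smul, N_Dm ι ρ p hF h1 (by omega), smul_smul,
      Nat.factorial_succ, Nat.cast_mul, mul_comm]

omit [CharP F p] in
theorem N_pow_p (x : V) : (Dm ι ρ 1 ^ p) x = 0 := by
  have h3 := (Fact.out : p.Prime).pos
  rw [N_pow ι ρ p hF h3 le_rfl, (CharP.cast_eq_zero_iff k p _).2 (Nat.dvd_factorial h3 le_rfl), zero_smul]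

omit [CharP F p] in
theorem Dm_eq {m : ℕ} (h1 : 1 ≤ m) (h2 : m ≤ p - 1) (x : V) :
    Dm ι ρ m x = (m.factorial : k)⁻¹ • (Dm ι ρ 1 ^ m) x := by
  have h3 := (Fact.out : p.Prime).pos
  rw [N_pow ι ρ p hF h1 (by omega), inv_smul_smul₀]
  rw [Ne, CharP.cast_eq_zero_iff k p, (Fact.out : p.Prime).dvd_factorial]
  omega

omit [CharP F p] in
theorem sum_u (x : V) : ∃ y, -∑ t, ρ (u t) x = (Dm ι ρ 1 ^ (p - 1)) y := by
  have h3 := (Fact.out : p.Prime).two_le
  refine ⟨((p - 1).factorial : k)⁻¹ • x, ?_⟩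
  rw [map_smul, ← Dm_eq ι ρ p hF (by omega) le_rfl, Dm_apply, hF, Nat.sub_self]
  simp only [pow_zero, one_smul]

theorem u_three (h3 : 3 ≤ p) {x : V} (hx : (Dm ι ρ 1 ^ 3) x = 0) (t : F) :
    ρ (u t) x = x + ι t • Dm ι ρ 1 x + (ι t ^ 2 * 2⁻¹) • Dm ι ρ 1 (Dm ι ρ 1 x) := by
  rw [u_eq ι ρ p, hF, ← Finset.sum_subset (s₁ := {1, 2}), Finset.sum_pair (by norm_num), pow_one, add_assoc,
    Dm_eq ι ρ p hF (m := 2) (by norm_num) (by omega), smul_smul, pow_two (Dm ι ρ 1), Module.End.mul_apply]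
  · norm_num
  · intro m hm
    simp only [Finset.mem_insert, Finset.mem_singleton] at hm
    rw [Finset.mem_Icc]
    omega
  · intro m hm hm'
    simp only [Finset.mem_insert, Finset.mem_singleton] at hm'
    rw [Finset.mem_Icc] at hm
    obtain ⟨n, rfl⟩ : ∃ n, m = n + 3 := ⟨m - 3, by omega⟩
    rw [Dm_eq ι ρ p hF hm.1 hm.2, pow_add (Dm ι ρ 1), Module.End.mul_apply, hx, map_zero, smul_zero, smul_zero]

theorem u_one (h3 : 3 ≤ p) {x : V} (hx : Dm ι ρ 1 x = 0) (t : F) : ρ (u t) x = x := by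
  rw [u_three ι ρ p hF h3 (by rw [pow_succ, Module.End.mul_apply, hx, map_zero]), hx, map_zero, smul_zero, smul_zero,
    add_zero, add_zero]

/-- a vector fixed by the Borel subgroup -/
theorem fix_B (h3 : 3 ≤ p) (h0 : ∀ y, (∀ g, ρ g y = y) → y = 0) {v : V} (hv : Dm ι ρ 1 v = 0) (hw : Wt ι ρ 0 v) :
    ∃ y, v = (Dm ι ρ 1 ^ (p - 1)) y := by
  obtain ⟨y, hy⟩ := sum_u ι ρ p hF (ρ w v)
  exact ⟨y, (eq_neg_of_add_eq_zero_left (h0 _ (ind ρ (u_one ι ρ p hF h3 hv) fun c => by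
    rw [hw c, zpow_zero, one_smul]))).trans hy⟩

end

/-! ### the module `L(2)` -/

/-- the action on the `2 × 2` matrices -/
def sq : Representation k (SpecialLinearGroup (Fin 2) F) (Matrix (Fin 2) (Fin 2) k) where
  toFun a :=
    { toFun := fun Y => a.1.map ι * Y * (a.1.map ι)ᵀ
      map_add' := fun X Y => by rw [mul_add, add_mul]
      map_smul' := fun c Y => by rw [mul_smul_comm, smul_mul_assoc, RingHom.id_apply] }
  map_one' := LinearMap.ext fun Y => by simp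
  map_mul' a b := LinearMap.ext fun Y => by simp [Matrix.map_mul, mul_assoc]

omit [Fintype F] [DecidableEq F] in
theorem sq_apply (a : SpecialLinearGroup (Fin 2) F) (Y : Matrix (Fin 2) (Fin 2) k) :
    sq ι a Y = a.1.map ι * Y * (a.1.map ι)ᵀ := rfl

omit [Fintype F] [DecidableEq F] in
theorem sq_u (t : F) (Y : Matrix (Fin 2) (Fin 2) k) : sq ι (u t) Y =
    !![Y 0 0 + ι t * (Y 0 1 + Y 1 0) + ι t ^ 2 * Y 1 1, Y 0 1 + ι t * Y 1 1; Y 1 0 + ι t * Y 1 1, Y 1 1] := by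
  rw [sq_apply]
  ext i j
  fin_cases i <;> fin_cases j <;> simp [u, Matrix.mul_apply, Fin.sum_univ_two] <;> ring

omit [Fintype F] [DecidableEq F] in
theorem sq_h (c : Fˣ) (Y : Matrix (Fin 2) (Fin 2) k) : sq ι (h c) Y =
    !![ι c ^ 2 * Y 0 0, Y 0 1; Y 1 0, (ι c ^ 2)⁻¹ * Y 1 1] := by
  have h1 := ι_ne ι c
  rw [sq_apply]
  ext i j
  fin_cases i <;> fin_cases j <;> simp [h, Matrix.mul_apply, Fin.sum_univ_two] <;> field_simp

omit [Fintype F] [DecidableEq F] in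
theorem sq_w (Y : Matrix (Fin 2) (Fin 2) k) : sq ι w Y = !![Y 1 1, -Y 1 0; -Y 0 1, Y 0 0] := by
  rw [sq_apply]
  ext i j
  fin_cases i <;> fin_cases j <;> simp [w, Matrix.mul_apply, Fin.sum_univ_two]

theorem tri (h2 : (2 : k) ≠ 0) {e x f : V} (ue : ∀ t, ρ (u t) e = e) (ux : ∀ t, ρ (u t) x = x - (2 * ι t) • e)
    (uf : ∀ t, ρ (u t) f = f + ι t • x - ι t ^ 2 • e) (he : Wt ι ρ 2 e) (hx : Wt ι ρ 0 x) (hf : Wt ι ρ (-2) f) :
    ∃ e' x' f', e' = e - ∑ t, ρ (u t) (ρ w f) ∧ (∀ t, ρ (u t) e' = e') ∧ (∀ t, ρ (u t) x' = x' - (2 * ι t) • e') ∧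
      (∀ t, ρ (u t) f' = f' + ι t • x' - ι t ^ 2 • e') ∧ ρ w e' = -f' ∧ ρ w x' = -x' ∧
      ∀ c : Fˣ, ρ (h c) e' = ι c ^ 2 • e' := by
  obtain ⟨φ, hφ⟩ : ∃ φ : Matrix (Fin 2) (Fin 2) k →ₗ[k] V,
      ∀ Y, φ Y = Y 0 0 • e - (2⁻¹ * (Y 0 1 + Y 1 0)) • x - Y 1 1 • f :=
    ⟨{ toFun := fun Y => Y 0 0 • e - (2⁻¹ * (Y 0 1 + Y 1 0)) • x - Y 1 1 • f
       map_add' := fun X Y => by simp only [Matrix.add_apply]; module
       map_smul' := fun c Y => by simp only [Matrix.smul_apply, smul_eq_mul, RingHom.id_apply]; module }, fun _ => rfl⟩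
  have fix : ∀ (g : SpecialLinearGroup (Fin 2) F) (ψ : Matrix (Fin 2) (Fin 2) k →ₗ[k] V),
      (sq ι).linHom ρ g ψ = ψ ↔ ∀ Y, ρ g (ψ Y) = ψ (sq ι g Y) := fun g ψ =>
    ⟨fun e Y => by
      have h1 := LinearMap.congr_fun e (sq ι g Y)
      rwa [Representation.linHom_apply, LinearMap.comp_apply, LinearMap.comp_apply, Representation.inv_self_apply] at h1,
    fun e => LinearMap.ext fun Y => by
      rw [Representation.linHom_apply, LinearMap.comp_apply, LinearMap.comp_apply, e, Representation.self_inv_apply]⟩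
  have h1 := fun g => (fix g _).1 (ind ((sq ι).linHom ρ) (v := φ) (fun t => (fix _ _).2 fun Y => by
    rw [hφ, hφ, sq_u, map_sub, map_sub, map_smul, map_smul, map_smul, ue, ux, uf]
    simp only [of_apply, cons_val', cons_val_zero, cons_val_one, cons_val_fin_one]
    match_scalars <;> field_simp <;> ring) (fun c => (fix _ _).2 fun Y => by
    rw [hφ, hφ, sq_h, map_sub, map_sub, map_smul, map_smul, map_smul, he, hx, hf, zpow_zero, _root_.zpow_neg, zpow_ofNat]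
    simp only [of_apply, cons_val', cons_val_zero, cons_val_one, cons_val_fin_one]
    match_scalars <;> ring) g)
  obtain ⟨Φ, hΦ⟩ : ∃ Φ, Φ = φ + ∑ t, (sq ι).linHom ρ (u t) ((sq ι).linHom ρ w φ) := ⟨_, rfl⟩
  rw [← hΦ] at h1
  refine ⟨Φ !![1, 0; 0, 0], Φ !![0, -1; -1, 0], Φ !![0, 0; 0, -1], ?_, fun t => ?_, fun t => ?_, fun t => ?_, ?_, ?_,
    fun c => ?_⟩
  · have h3 : sq ι w⁻¹ !![1, 0; 0, 0] = !![0, 0; 0, 1] := by
      rw [Representation.inv_apply_eq_iff, sq_w]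
      simp
    have h4 : ∀ t, sq ι (u t)⁻¹ !![1, 0; 0, 0] = !![1, 0; 0, 0] := fun t => by
      rw [← u_neg, sq_u]
      simp
    rw [hΦ, LinearMap.add_apply, LinearMap.sum_apply, hφ, sub_eq_add_neg e, ← Finset.sum_neg_distrib]
    refine congrArg₂ _ (by simp) (Finset.sum_congr rfl fun t _ => ?_)
    simp only [Representation.linHom_apply, LinearMap.comp_apply]
    rw [h4, h3, hφ]
    simp
  · rw [h1, sq_u]
    simp
  · rw [h1, sq_u, ← map_smul, ← map_sub]
    refine congrArg _ ?_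
    ext i j
    fin_cases i <;> fin_cases j <;> simp
    ring
  · rw [h1, sq_u, ← map_smul Φ, ← map_smul Φ, ← map_add, ← map_sub]
    refine congrArg _ ?_
    ext i j
    fin_cases i <;> fin_cases j <;> simp
  · rw [h1, sq_w, ← map_neg]
    refine congrArg _ ?_
    ext i j
    fin_cases i <;> fin_cases j <;> simp
  · rw [h1, sq_w, ← map_neg]
    refine congrArg _ ?_
    ext i j
    fin_cases i <;> fin_cases j <;> simp
  · rw [h1, sq_h, ← map_smul]
    refine congrArg _ ?_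
    ext i j
    fin_cases i <;> fin_cases j <;> simp

/-- duality -/
theorem mem_range [FiniteDimensional k V] {B : V →ₗ[k] V →ₗ[k] k} (hs : ∀ x y, B x y = B y x)
    (hn : ∀ y, (∀ x, B x y = 0) → y = 0) {T T' : V →ₗ[k] V} (hT : ∀ x y, B (T x) y = B x (T' y)) {y : V}
    (hy : ∀ z, T' z = 0 → B z y = 0) : ∃ x, T x = y := by
  have h1 : LinearMap.BilinForm.IsRefl B := fun x y e => (hs y x).trans e
  have h2 : y ∈ LinearMap.range T := by
    rw [← LinearMap.BilinForm.orthogonal_orthogonal ((LinearMap.IsRefl.nondegenerate_iff_separatingRight h1).2 hn) h1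
      (LinearMap.range T)]
    exact fun z hz => hy z (hn _ fun x => (hT x z).symm.trans (hz _ ⟨x, rfl⟩))
  exact h2

end Cfsg.Agent.E7P.A1
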